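import Mathlib
import Cfsg.Agent.Class.FieldTransport
import Cfsg.Agent.Class.U.Simple

/-! Finite computations in the unitary space of dimension three over the field of nine elements. -/

set_option autoImplicit false

namespace Cfsg.Agent.U33

open Cfsg Cfsg.Agent.Class Cfsg.Agent.Class.U

abbrev V := Fin 3 → GF9
abbrev G := SU 3 GF9 3
instance uf9 : UF GF9 3 := UF.of_card (by rw [card_GF9]; norm_num)
noncomputable instance fintG : Fintype G := Fintype.ofFinite _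
local notation "𝐡" => hermForm 3 GF9 3

def Xs : Finset V := Finset.univ.filter fun v => v ≠ 0 ∧ 𝐡 v v = 0
def tv (s : GF9) (v x : V) : V := x + (s * 𝐡 x v) • v
def ee (c : GF9) : ℤ := if c = 0 then 0 else if c ^ 4 = 1 then 1 else -1
def ph (v w : V) : ℤ := ∑ c : GF9, if w = c • v then ee c else 0
def u0 : V := ![1, 1, 1]
def v1 : V := ![1, ⟨0, 1⟩, 1]
def a0 : GF9 := ⟨0, 1⟩
def P (s : GF9) (v : V) : ℤ := ∑ w ∈ Xs, ph w (tv s v (tv a0 u0 w))

theorem d0 : Xs.card = 224 := by decide +kernel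
theorem d1 : P a0 u0 = 8 ∧ P (-a0) u0 = 224 ∧ P a0 v1 = 0 ∧ P (-a0) v1 = 8 := by decide +kernel
theorem d2 : ∀ v : V, 𝐡 v v = 0 → 𝐡 u0 v = 0 → v = v 0 • u0 := by decide +kernel
theorem d3 : (Xs.filter fun v => v = v 0 • u0).card = 8 := by decide +kernel
theorem d4 : ∑ w ∈ Xs, ph w (tv a0 u0 w) = 8 := by decide +kernel
theorem d5 : ∑ v ∈ Xs, (if 𝐡 u0 v = 0 then (if v 0 ^ 4 = 1 then 8 else 224) else
    if 𝐡 u0 v ^ 4 = 1 then 8 else 0 : ℤ) = 1792 := by decide +kernel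
theorem d6 : ∀ k : GF9, k ≠ 0 → ∃ c : GF9, 𝐡 u0 (c • v1) = k ∧ c ^ 4 = - k ^ 4 := by
  decide +kernel
theorem d7 : ∀ c : GF9, c ≠ 0 → c ^ 4 = 1 ∨ c ^ 4 = -1 := by decide +kernel
theorem ee_mul : ∀ a b : GF9, ee (a * b) = ee a * ee b := by decide +kernel
theorem ee_eq : ∀ a b : GF9, a * b ^ 3 = 1 → ee b = ee a := by decide +kernel
theorem hu0 : 𝐡 u0 u0 = 0 := by decide +kernel
theorem hv1 : 𝐡 v1 v1 = 0 := by decide +kernel
theorem u0_ne : u0 ≠ 0 := by decide +kernel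

end Cfsg.Agent.U33
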