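import Mathlib
import Cfsg.Prelude.Def_DegreeGraph
import Cfsg.Agent.Small.DegData
import Cfsg.Agent.Char.Mackey
import Cfsg.Agent.Char.Monomial
import Cfsg.Agent.Char.Prod
import Cfsg.Agent.Char.ConjChar

/-!
Character degrees of a simple group of order 6048 (abstract part), Mackey sums of linear
characters, and an irreducible character of a split extension induced from a regular orbit.
-/

set_option autoImplicit false
set_option linter.style.haveILetI false
set_option linter.unusedSectionVars false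

namespace Cfsg.Agent.Small

open Subgroup Cfsg.Agent.Grp Cfsg.Agent.Grp.SelfCent Cfsg.Agent.Char Cfsg.Agent.Char.SelfC
open Cfsg.Agent.Block
open scoped ComplexConjugate

variable {G : Type*} [Group G] [Fintype G]

theorem mackeySum_eq_zero_of_ne {H : Subgroup G} [Fintype H] (θ : H →* ℂˣ) (x : G) (y : H)
    (hy : x * y * x⁻¹ ∈ H) (hne : θ ⟨_, hy⟩ ≠ θ y) :
    mackeySum (fun h => (θ h : ℂ)) (fun h => (θ h : ℂ)) x = 0 := by
  have hc : ∀ h : H, conj (θ h : ℂ) = (θ h : ℂ)⁻¹ := fun h => by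
    have := (isIrrCharacter_hom θ).isGen.map_inv h
    simp only [map_inv, Units.val_inv_eq_inv_val] at this
    exact this.symm
  set S := mackeySum (fun h => (θ h : ℂ)) (fun h => (θ h : ℂ)) x with hS
  have h1 : S = (θ ⟨_, hy⟩ : ℂ) * (θ y : ℂ)⁻¹ * S := by
    rw [hS, mackeySum, Finset.mul_sum, ← Equiv.sum_comp (Equiv.mulLeft y)]
    refine Finset.sum_congr rfl fun z _ => ?_
    simp only [Equiv.coe_mulLeft, coe_mul, hc, map_mul, Units.val_mul]
    have e : x * (y * z) * x⁻¹ = (x * y * x⁻¹) * (x * z * x⁻¹) := by group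
    by_cases hz : x * z * x⁻¹ ∈ H
    · rw [extendByZero_of_mem H _ hz, extendByZero_of_mem H _ (e ▸ H.mul_mem hy hz)]
      have : (⟨x * (y * z) * x⁻¹, e ▸ H.mul_mem hy hz⟩ : H) = ⟨_, hy⟩ * ⟨_, hz⟩ := Subtype.ext e
      rw [this, map_mul, Units.val_mul]
      ring
    · rw [extendByZero_of_not_mem H _ hz, extendByZero_of_not_mem H _
        (e ▸ fun h => hz ((H.mul_mem_cancel_left hy).1 h))]
      simp
  by_contra h0
  apply hne
  have h2 : (θ ⟨_, hy⟩ : ℂ) * (θ y : ℂ)⁻¹ = 1 := mul_right_cancel₀ h0 (by rw [← h1, one_mul])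
  exact Units.ext (by rwa [mul_inv_eq_one₀ (θ y).ne_zero] at h2)

theorem mackeySum_eq_of_forall {H : Subgroup G} [Fintype H] (θ : H →* ℂˣ) (x : G)
    (h : ∀ (y : H) (hy : x * y * x⁻¹ ∈ H), θ ⟨_, hy⟩ = θ y) :
    mackeySum (fun h => (θ h : ℂ)) (fun h => (θ h : ℂ)) x =
      mackeySum (fun _ : H => (1 : ℂ)) (fun _ => 1) x := by
  refine Finset.sum_congr rfl fun y _ => ?_
  by_cases hy : x * y * x⁻¹ ∈ H
  · have := (isIrrCharacter_hom θ).isGen.map_inv y
    simp only [map_inv, Units.val_inv_eq_inv_val] at this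
    rw [extendByZero_of_mem H _ hy, extendByZero_of_mem H _ hy, h y hy, ← this]
    simp
  · rw [extendByZero_of_not_mem H _ hy, extendByZero_of_not_mem H _ hy, zero_mul, zero_mul]

theorem exists_add_of_norm_two {ψ : G → ℂ} (hψ : IsCharacter G ψ) (h2 : classInner ψ ψ = 2) :
    ∃ α β, IsIrrCharacter G α ∧ IsIrrCharacter G β ∧ ψ = α + β := by
  obtain ⟨α, β, hα, hβ, rfl⟩ := exists_irr_add_of_ne_zero hψ (by
    rintro rfl
    rw [classInner_zero_left] at h2
    norm_num at h2)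
  refine ⟨α, β, hα, hβ.isIrr_of_inner_self ?_, rfl⟩
  obtain ⟨m, hm⟩ := hβ.exists_nat_inner hα.isCharacter
  obtain ⟨n, hn⟩ := hβ.exists_nat_inner hβ
  rw [classInner_add_left, classInner_add_right, classInner_add_right, hα.inner_self,
    hα.isCharacter.inner_symm hβ, hm, hn] at h2
  have h3 : 1 + m + (m + n) = 2 := by exact_mod_cast h2
  rw [hn, show n = 1 by omega, Nat.cast_one]

theorem seven_data [IsSimpleGroup G] (hG : Nat.card G = 6048) {St : IrrCharacter G}
    (hSt : charDegree (St : G → ℂ) = 27) :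
    ∃ b c, ((b = 6 ∧ c = 32) ∨ (b = 8 ∧ c = 18)) ∧ b ∈ charDegrees G ∧ c ∈ charDegrees G ∧
      ∀ χ : IrrCharacter G, χ ≠ irrOne G → 7 ∣ charDegree (χ : G → ℂ) ∨
        charDegree (χ : G → ℂ) = 27 ∨ charDegree (χ : G → ℂ) = b ∨ charDegree (χ : G → ℂ) = c := by
  classical
  haveI : Fact (Nat.Prime 7) := ⟨by norm_num⟩
  have hna : ¬ IsMulCommutative G := not_comm_of_card (by rw [hG]; norm_num)
  obtain ⟨n, e, h1, h2, h3, h4, -, h5⟩ := three_prime_data (p := 7) hna (q := 2) (r := 3) (a := 5)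
    (b := 3) Nat.prime_two Nat.prime_three (by norm_num) (by norm_num) (by norm_num)
    (by rw [hG]; norm_num)
  have he3 : e = 3 := by
    have := Nat.le_of_dvd (by norm_num) h4
    interval_cases e <;> omega
  obtain ⟨P⟩ : Nonempty (Sylow 7 G) := inferInstance
  obtain ⟨hP, -, hC, he⟩ := h5 P
  obtain ⟨x, hx, hxP⟩ := exists_zpowers_eq_sylow P hP
  obtain ⟨M, hM⟩ := exists_isPModular (show Nat.Prime 7 by norm_num)
  obtain ⟨D, hD, hX1⟩ := exists_b0Data_norm (commutator_eq_top hna) (by norm_num) P hxP.symm hx hM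
  rw [← hxP, centralizer_zpowers] at hC he
  have hDe : D.e = 3 := by rw [← D.he, he, he3]
  have hidx : (centralizer ({x} : Set G)).index = 864 := by
    have := (centralizer ({x} : Set G)).card_mul_index
    rw [hG] at this
    nth_rewrite 1 [hC] at this
    rw [card_zp hx] at this
    omega
  have hmem : ∀ χ : IrrCharacter G, ¬ 7 ∣ charDegree (χ : G → ℂ) → χ ∈ D.X ∨ χ ∈ D.Y := by
    intro χ h
    have := mem_principal_of_not_dvd hM hx hC h
    rw [hD] at this
    exact this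
  have hYd : ∀ θ ∈ D.Y, charDegree (θ : G → ℂ) = D.d := fun θ hθ =>
    charDegree_eq_of_eq (D.degY θ hθ)
  have hm := D.modY
  rw [hDe] at hm
  have hStX : St ∈ D.X := by
    refine (hmem St (by rw [hSt]; norm_num)).resolve_right fun h => ?_
    rw [← hYd St h, hSt] at hm
    rcases D.signY with h | h <;> rw [h] at hm <;> revert hm <;> decide
  have hSt1 : St ≠ irrOne G := by
    rintro rfl
    rw [charDegree_eq_of_eq (n := 1) (by simp [irrOne_apply])] at hSt
    omega
  have hStε : D.ε St = -1 := by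
    have := D.degX St hStX
    rw [hSt] at this
    rcases D.sign St hStX with h | h
    · rw [h] at this; exact absurd this (by decide)
    · exact h
  have hS' : St ∈ D.X.erase (irrOne G) := Finset.mem_erase.2 ⟨hSt1, hStX⟩
  obtain ⟨β, hβ⟩ := Finset.card_eq_one.1 (show ((D.X.erase (irrOne G)).erase St).card = 1 by
    rw [Finset.card_erase_of_mem hS', Finset.card_erase_of_mem hX1, D.cardX, hDe])
  have hβX : β ∈ D.X := Finset.mem_of_mem_erase (Finset.mem_of_mem_erase
    (hβ ▸ Finset.mem_singleton_self β))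
  have hs := D.deg_eq
  rw [← Finset.add_sum_erase _ _ hX1, ← Finset.add_sum_erase _ _ hS', hβ, Finset.sum_singleton,
    D.ε_irrOne hx hX1, charDegree_eq_of_eq (n := 1) (by simp [irrOne_apply]), hSt, hStε] at hs
  obtain ⟨θ, hθ⟩ := D.Y_nonempty
  refine ⟨charDegree (β : G → ℂ), D.d, ?_, ⟨β, rfl⟩, ⟨θ, hYd θ hθ⟩, fun χ hχ => ?_⟩
  · have key : ∀ b ∈ Nat.divisors 864, ∀ d ∈ Nat.divisors 864, ∀ ε ∈ [(1 : ℤ), -1],
        ∀ δ ∈ [(1 : ℤ), -1], (b : ℤ) ≡ ε [ZMOD (7 : ℕ)] →
        δ * d = 1 * ((1 : ℕ) : ℤ) + (-1 * ((27 : ℕ) : ℤ) + ε * b) →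
        (b = 6 ∧ d = 32) ∨ (b = 8 ∧ d = 18) := by decide +kernel
    exact key _ (Nat.mem_divisors.2 ⟨hidx ▸ D.dvd_X hx hβX, by norm_num⟩) _
      (Nat.mem_divisors.2 ⟨hidx ▸ D.dvd_Y hx, by norm_num⟩) _ (by simpa using D.sign β hβX) _
      (by simpa using D.signY) (D.degX β hβX) hs
  · by_cases h7 : 7 ∣ charDegree (χ : G → ℂ)
    · exact Or.inl h7
    right
    rcases hmem χ h7 with h | h
    · by_cases h' : χ = St
      · exact Or.inl (h' ▸ hSt)
      · have : χ ∈ (D.X.erase (irrOne G)).erase St :=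
          Finset.mem_erase.2 ⟨h', Finset.mem_erase.2 ⟨hχ, h⟩⟩
        rw [hβ, Finset.mem_singleton] at this
        exact Or.inr (Or.inl (by rw [this]))
    · exact Or.inr (Or.inr (hYd χ h))

theorem degrees_of_6048 [IsSimpleGroup G] (hG : Nat.card G = 6048) {St : G → ℂ}
    (hSt : IsIrrCharacter G St) (hSt1 : St 1 = 27) {ψ : G → ℂ} (hψ : IsCharacter G ψ)
    (hψ2 : classInner ψ ψ = 2) (hψ1 : ψ 1 = 28) (hψ0 : classInner ψ (fun _ => 1) = 0) {τ : G}
    (hτ : ψ τ = 1) (hs : ∑ a, ψ (a * τ * a⁻¹ * τ) = 6048) :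
    (∃ d ∈ charDegrees G, 6 ∣ d) ∧ ∃ d ∈ charDegrees G, 21 ∣ d := by
  obtain ⟨b, c, hbc, hb, hc, hall⟩ := seven_data hG (St := ⟨St, hSt⟩)
    (charDegree_eq_of_eq (by exact_mod_cast hSt1))
  refine ⟨by rcases hbc with ⟨rfl, rfl⟩ | ⟨rfl, rfl⟩; exacts [⟨_, hb, by norm_num⟩,
    ⟨_, hc, by norm_num⟩], ?_⟩
  obtain ⟨α, β, hα, hβ, rfl⟩ := exists_add_of_norm_two hψ hψ2
  obtain ⟨m, hm⟩ := hα.isCharacter.exists_nat_inner isIrrCharacter_one.isCharacter
  obtain ⟨n, hn⟩ := hβ.isCharacter.exists_nat_inner isIrrCharacter_one.isCharacter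
  rw [classInner_add_left, hm, hn] at hψ0
  have hmn : m + n = 0 := by exact_mod_cast hψ0
  have h1 : (⟨α, hα⟩ : IrrCharacter G) ≠ irrOne G := fun h => by
    have : α = fun _ => 1 := congrArg Subtype.val h
    rw [this, isIrrCharacter_one.inner_self] at hm
    have : 1 = m := by exact_mod_cast hm
    omega
  have h2 : (⟨β, hβ⟩ : IrrCharacter G) ≠ irrOne G := fun h => by
    have : β = fun _ => 1 := congrArg Subtype.val h
    rw [this, isIrrCharacter_one.inner_self] at hn
    have : 1 = n := by exact_mod_cast hn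
    omega
  have h3 := hall _ h1
  have h4 := hall _ h2
  have h5 := two_le_charDegree (commutator_eq_top (not_comm_of_card (by rw [hG]; norm_num))) h1
  have h6 := two_le_charDegree (commutator_eq_top (not_comm_of_card (by rw [hG]; norm_num))) h2
  have ha := cast_charDegree hα.isCharacter
  have hb' := cast_charDegree hβ.isCharacter
  rw [Pi.add_apply, ← ha, ← hb'] at hψ1
  have h7 : charDegree α + charDegree β = 28 := by exact_mod_cast hψ1
  change 7 ∣ charDegree α ∨ charDegree α = 27 ∨ charDegree α = b ∨ charDegree α = c at h3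
  change 7 ∣ charDegree β ∨ charDegree β = 27 ∨ charDegree β = b ∨ charDegree β = c at h4
  change 2 ≤ charDegree α at h5
  change 2 ≤ charDegree β at h6
  rcases (by omega : charDegree α = 21 ∨ charDegree β = 21 ∨
    (charDegree α = 14 ∧ charDegree β = 14)) with h | h | ⟨h, h'⟩
  · exact ⟨_, ⟨⟨α, hα⟩, rfl⟩, h.symm.dvd⟩
  · exact ⟨_, ⟨⟨β, hβ⟩, rfl⟩, h.symm.dvd⟩
  exfalso
  have e1 := hα.one_mul_sum_conj_mul τ τ
  have e2 := hβ.one_mul_sum_conj_mul τ τ
  rw [← ha, h, hG] at e1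
  rw [← hb', h', hG] at e2
  simp only [Pi.add_apply, Finset.sum_add_distrib] at hs hτ
  have e3 : α τ ^ 2 - α τ = ((13 / 2 : ℚ) : ℂ) := by
    have : β τ = 1 - α τ := by linear_combination hτ
    rw [this] at e2
    push_cast at e1 e2 ⊢
    linear_combination (14 * hs - e1 - e2) / 12096
  have hi := hα.isGen.isIntegral τ
  have h8 : IsIntegral ℤ (algebraMap ℚ ℂ (13 / 2)) := by
    have := (hi.pow 2).sub hi
    rwa [e3] at this
  rw [isIntegral_algebraMap_iff (algebraMap ℚ ℂ).injective] at h8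
  obtain ⟨z, hz⟩ := IsIntegrallyClosed.isIntegral_iff.1 h8
  have : (2 * z : ℚ) = 13 := by rw [show (z : ℚ) = 13 / 2 from hz]; norm_num
  have : 2 * z = 13 := by exact_mod_cast this
  omega

/-- A linear character of the kernel with trivial stabilizer induces irreducibly. -/
theorem card_mem_charDegrees_semidirect {A K : Type*} [Group A] [Group K] [Finite A] [Finite K]
    (φ : K →* MulAut A) (l : A →* ℂˣ) (h : ∀ k : K, k ≠ 1 → ∃ a, l (φ k a) ≠ l a) :
    Nat.card K ∈ charDegrees (A ⋊[φ] K) := by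
  haveI : Finite (A ⋊[φ] K) := Finite.of_equiv _ SemidirectProduct.equivProd.symm
  haveI := Fintype.ofFinite (A ⋊[φ] K)
  let N := (SemidirectProduct.rightHom : A ⋊[φ] K →* K).ker
  let θ : N →* ℂˣ := MonoidHom.mk' (fun n => l n.1.left) fun a b => by
    have : a.1.right = 1 := a.2
    simp [this]
  refine ⟨⟨_, isIrr_indFun_of_forall_ne N (isIrrCharacter_hom θ) fun g hg e => ?_⟩,
    charDegree_eq_of_eq ?_⟩
  · obtain ⟨a, ha⟩ := h g.right hg
    have := congrFun e ⟨SemidirectProduct.inl a, by simp [N]⟩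
    rw [conjChar_apply] at this
    apply ha
    simpa [θ, mul_comm] using Units.ext this
  · change indFun N _ 1 = _
    rw [indFun_one, Subgroup.index_ker,
      MonoidHom.range_eq_top.2 SemidirectProduct.rightHom_surjective, Subgroup.card_top]
    simp

end Cfsg.Agent.Small
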