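import Mathlib
import Cfsg.Agent.Small.Tools
import Cfsg.Agent.Transfer.SignSemireg

/-!
A simple group with exactly 22 Sylow 3-subgroups has Sylow 3-subgroups of order 3.
-/

set_option autoImplicit false

namespace Cfsg.Agent.Small.Syl22

open Finset
open scoped Pointwise

/-- A partial linear space on 22 points without triangles. -/
theorem comb {Ω ι : Type*} [Fintype Ω] [DecidableEq Ω] [Fintype ι] [DecidableEq ι]
    (F : ι → Finset Ω) (hΩ : Fintype.card Ω = 22)
    (hA : ∀ i j, i ≠ j → ∀ a b, a ∈ F i → a ∈ F j → b ∈ F i → b ∈ F j → a = b)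
    (hB : ∀ i, 4 ≤ (F i).card) (hB' : ∀ i, (F i).card ≠ 22)
    (c : ℕ) (hC : ∀ a, (univ.filter (fun i => a ∈ F i)).card = c)
    (hD : ∀ a, ∃ K : Finset Ω, (∀ b, b ∈ K ↔ b ≠ a ∧ ∃ i, a ∈ F i ∧ b ∈ F i) ∧ K.card % 9 = 3)
    (hE : ∀ l m m', l ≠ m → l ≠ m' → m ≠ m' → (∃ a, a ∈ F l ∧ a ∈ F m) →
      (∃ a, a ∈ F l ∧ a ∈ F m') → ∀ x, x ∈ F m → x ∈ F m' → x ∈ F l) : False := by
  have hk : ∀ a, (∑ i ∈ univ.filter (fun i => a ∈ F i), ((F i).card - 1)) % 9 = 3 := by
    intro a
    obtain ⟨K, hK, hK9⟩ := hD a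
    have e : K = (univ.filter (fun i => a ∈ F i)).biUnion fun i => (F i).erase a := by
      ext b
      simp only [hK, mem_biUnion, mem_filter, mem_univ, true_and, mem_erase]
      tauto
    rw [e, card_biUnion] at hK9
    · rw [← hK9]
      congr 1
      refine sum_congr rfl fun i hi => ?_
      rw [card_erase_of_mem (mem_filter.1 hi).2]
    · intro i hi j hj hij
      simp only [coe_filter, mem_univ, true_and, Set.mem_ofPred_eq] at hi hj
      rw [Function.onFun, disjoint_left]
      intro b hb hb'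
      exact (mem_erase.1 hb).1 (hA i j hij b a (mem_erase.1 hb).2 (mem_erase.1 hb').2 hi hj)
  have hl : ∀ l, (F l).card + 3 * ((F l).card * (c - 1)) ≤ 22 := by
    intro l
    let M := (F l).biUnion fun a => (univ.filter (fun i => a ∈ F i)).erase l
    have hM : ∀ m, m ∈ M ↔ m ≠ l ∧ ∃ a, a ∈ F l ∧ a ∈ F m := by
      intro m
      simp only [M, mem_biUnion, mem_erase, mem_filter, mem_univ, true_and]
      tauto
    have hMc : M.card = (F l).card * (c - 1) := by
      rw [card_biUnion]
      · rw [← smul_eq_mul, ← sum_const]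
        refine sum_congr rfl fun a ha => ?_
        rw [card_erase_of_mem (by simpa using ha), hC]
      · intro a ha b hb hab
        rw [Function.onFun, disjoint_left]
        intro m hm hm'
        simp only [mem_erase, mem_filter, mem_univ, true_and] at hm hm'
        exact hab (hA l m hm.1.symm a b ha hm.2 hb hm'.2)
    clear_value M
    have h1 : 3 * M.card ≤ (M.biUnion fun m => F m \ F l).card := by
      rw [card_biUnion]
      · rw [mul_comm]
        refine card_nsmul_le_sum M (fun m => (F m \ F l).card) 3 fun m hm => ?_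
        have h2 : (F m ∩ F l).card ≤ 1 := card_le_one.2 fun a ha b hb =>
          hA m l ((hM m).1 hm).1 a b (mem_inter.1 ha).1 (mem_inter.1 ha).2 (mem_inter.1 hb).1
            (mem_inter.1 hb).2
        have h3 := card_sdiff_add_card_inter (F m) (F l)
        have := hB m
        omega
      · intro m hm m' hm' hmm
        rw [Function.onFun, disjoint_left]
        intro x hx hx'
        have g1 := (hM m).1 hm
        have g2 := (hM m').1 hm'
        exact (mem_sdiff.1 hx).2 (hE l m m' g1.1.symm g2.1.symm hmm g1.2 g2.2 x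
          (mem_sdiff.1 hx).1 (mem_sdiff.1 hx').1)
    have h2 : Disjoint (F l) (M.biUnion fun m => F m \ F l) := by
      rw [disjoint_left]
      intro x hx hx'
      obtain ⟨m, -, hm⟩ := mem_biUnion.1 hx'
      exact (mem_sdiff.1 hm).2 hx
    have h3 := card_le_univ (F l ∪ M.biUnion fun m => F m \ F l)
    rw [card_union_of_disjoint h2, hΩ] at h3
    omega
  obtain ⟨a₀⟩ : Nonempty Ω := Fintype.card_pos_iff.1 (by omega)
  rcases Nat.lt_or_ge c 3 with h3 | h3
  · interval_cases c
    · have := hk a₀
      rw [card_eq_zero.1 (hC a₀)] at this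
      simp at this
    · have hs : ∀ i, (F i).card = 4 + if (F i).card = 13 then 9 else 0 := by
        intro i
        obtain ⟨a, ha⟩ : (F i).Nonempty := card_pos.1 (by have := hB i; omega)
        obtain ⟨j, hj⟩ := card_eq_one.1 (hC a)
        have hij : i ∈ univ.filter (fun i => a ∈ F i) := by simpa using ha
        rw [hj, mem_singleton] at hij
        have h1 := hk a
        rw [hj, ← hij, sum_singleton] at h1
        have h2 := card_le_univ (F i)
        have h4 := hB' i
        split_ifs <;> omega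
      have hsum : ∑ i, (F i).card = 22 := by
        rw [← hΩ, ← card_univ, ← card_biUnion]
        · congr 1
          refine eq_univ_of_forall fun a => ?_
          obtain ⟨j, hj⟩ := card_eq_one.1 (hC a)
          have : j ∈ univ.filter (fun i => a ∈ F i) := hj ▸ mem_singleton_self j
          exact mem_biUnion.2 ⟨j, mem_univ _, (mem_filter.1 this).2⟩
        · intro i _ j _ hij
          rw [Function.onFun, disjoint_left]
          intro a ha ha'
          exact hij (card_le_one.1 (hC a).le i (by simpa using ha) j (by simpa using ha'))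
      rw [sum_congr rfl fun i _ => hs i, sum_add_distrib, ← sum_filter, sum_const, sum_const,
        smul_eq_mul, smul_eq_mul] at hsum
      have := card_filter_le (univ : Finset ι) (fun i => (F i).card = 13)
      omega
    · obtain ⟨i, j, hij, h⟩ := card_eq_two.1 (hC a₀)
      have h1 := hk a₀
      rw [h, sum_pair hij] at h1
      have := hl i
      have := hl j
      have := hB i
      have := hB j
      omega
  · obtain ⟨l, -⟩ : (univ.filter (fun i => a₀ ∈ F i)).Nonempty := card_pos.1 (by rw [hC]; omega)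
    have h1 := hl l
    have h2 : 4 * 2 ≤ (F l).card * (c - 1) := Nat.mul_le_mul (hB l) (by omega)
    omega

open MulAction in
theorem card_orbit_sylow {G : Type*} [Group G] [Finite G] {p : ℕ} [Fact p.Prime]
    (P Q : Sylow p G) : (orbit (P : Subgroup G) Q).ncard = (Q : Subgroup G).relIndex P := by
  have h1 : (Q : Subgroup G).relIndex P
      = (Subgroup.normalizer ((Q : Subgroup G) : Set G)).relIndex P := by
    have := P.isPGroup'.inf_normalizer_sylow Q
    rw [← Subgroup.inf_relIndex_left, ← Subgroup.inf_relIndex_left (P : Subgroup G)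
      (Subgroup.normalizer ((Q : Subgroup G) : Set G))]
    congr 1
    exact this.symm
  have h0 : Subgroup.normalizer ((Q : Subgroup G) : Set G) = stabilizer G Q :=
    (Sylow.stabilizer_eq_normalizer Q).symm
  rw [h1, Subgroup.relIndex, h0]
  have : (stabilizer G Q).subgroupOf P = stabilizer (P : Subgroup G) Q := by
    ext x; rfl
  rw [this, MulAction.index_stabilizer]

open MulAction in
/-- An invariant finite set all of whose orbits have size divisible by `m`. -/
theorem dvd_card_of_orbits {H Ω : Type*} [Group H] [MulAction H Ω] (X : Finset Ω)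
    (hX : ∀ h : H, ∀ x ∈ X, h • x ∈ X) {m : ℕ} (hm : ∀ x ∈ X, m ∣ (orbit H x).ncard) :
    m ∣ X.card := by
  classical
  rw [card_eq_sum_card_image (Quotient.mk (orbitRel H Ω)) X]
  refine dvd_sum fun ω hω => ?_
  obtain ⟨x, hx, rfl⟩ := mem_image.1 hω
  have : orbit H x = ↑(X.filter fun y => Quotient.mk (orbitRel H Ω) y =
      Quotient.mk (orbitRel H Ω) x) := by
    ext y
    simp only [coe_filter, Set.mem_ofPred_eq, Quotient.eq, orbitRel_apply]
    refine ⟨fun h => ⟨?_, h⟩, fun h => h.2⟩
    obtain ⟨g, rfl⟩ := h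
    exact hX g x hx
  have h1 := hm x hx
  rwa [this, Set.ncard_coe_finset] at h1

theorem smul_eq_iff_le {G : Type*} [Group G] {p : ℕ} {D : Subgroup G} (hD : IsPGroup p D)
    (S : Sylow p G) : (∀ g ∈ D, g • S = S) ↔ D ≤ S := by
  rw [← hD.sylow_mem_fixedPoints_iff]
  exact ⟨fun h g => h g g.2, fun h g hg => h ⟨g, hg⟩⟩

theorem card_sylow_three {G : Type*} [Group G] [Finite G] [IsSimpleGroup G]
    (h22 : Nat.card (Sylow 3 G) = 22) (P : Sylow 3 G) : Nat.card (P : Subgroup G) = 3 := by
  classical
  have := Fintype.ofFinite (Sylow 3 G)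
  have := Fintype.ofFinite (Subgroup G)
  have hΩ : Fintype.card (Sylow 3 G) = 22 := by rw [← Nat.card_eq_fintype_card, h22]
  have hcard : ∀ S : Sylow 3 G, Nat.card (S : Subgroup G) = Nat.card (P : Subgroup G) :=
    fun S => by rw [Sylow.card_eq_multiplicity, Sylow.card_eq_multiplicity]
  have hnall : ∀ D : Subgroup G, (∀ S : Sylow 3 G, D ≤ S) → D = ⊥ ∨ ∀ S : Sylow 3 G, S = P := by
    intro D hD
    have hn : (⨅ S : Sylow 3 G, (S : Subgroup G)).Normal := ⟨fun x hx g => by
      rw [Subgroup.mem_iInf] at hx ⊢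
      intro S
      have := hx (g⁻¹ • S)
      rw [Sylow.coe_subgroup_smul, Subgroup.mem_pointwise_smul_iff_inv_smul_mem] at this
      simpa using this⟩
    rcases hn.eq_bot_or_eq_top with e | e
    · exact Or.inl (eq_bot_iff.2 (e ▸ le_iInf hD))
    · right
      intro S
      have h1 : ∀ T : Sylow 3 G, (T : Subgroup G) = ⊤ := fun T =>
        eq_top_iff.2 (e ▸ iInf_le (fun S : Sylow 3 G => (S : Subgroup G)) T)
      exact Sylow.ext ((h1 S).trans (h1 P).symm)
  have hnt : ¬ ∀ S : Sylow 3 G, S = P := by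
    intro h
    have : Fintype.card (Sylow 3 G) ≤ 1 := Fintype.card_le_one_iff.2 fun a b => (h a).trans (h b).symm
    omega
  obtain ⟨k, hk⟩ := IsPGroup.iff_card.1 P.isPGroup'
  have hlt : ∀ S T : Sylow 3 G, S ≠ T →
      ∃ j, 1 ≤ j ∧ (T : Subgroup G).relIndex S = 3 ^ j := by
    intro S T hne
    obtain ⟨j, hj⟩ := S.isPGroup'.index ((T : Subgroup G).subgroupOf S)
    refine ⟨j, Nat.pos_of_ne_zero ?_, hj⟩
    rintro rfl
    change (T : Subgroup G).relIndex S = _ at hj
    rw [pow_zero, Subgroup.relIndex_eq_one] at hj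
    exact hne (Sylow.ext (S.is_maximal' T.isPGroup' hj).symm)
  have hmul : ∀ S T : Sylow 3 G, Nat.card ↥((S : Subgroup G) ⊓ T) * (T : Subgroup G).relIndex S =
      3 ^ k := by
    intro S T
    rw [← hk, ← hcard S, ← Subgroup.inf_relIndex_left]
    have := Subgroup.card_mul_index (((S : Subgroup G) ⊓ T).subgroupOf S)
    rwa [Nat.card_congr (Subgroup.subgroupOfEquivOfLe inf_le_left).toEquiv] at this
  by_contra hne
  let F₀ : Subgroup G → Finset (Sylow 3 G) := fun D => univ.filter fun S => D ≤ S
  have hF₀ : ∀ D S, S ∈ F₀ D ↔ D ≤ (S : Subgroup G) := by simp [F₀]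
  let good : Subgroup G → Prop := fun D => Nat.card D * 3 = 3 ^ k ∧ 2 ≤ (F₀ D).card
  have heq : ∀ D, good D → ∀ S T : Sylow 3 G, S ≠ T → D ≤ S → D ≤ T →
      D = (S : Subgroup G) ⊓ T ∧ (T : Subgroup G).relIndex S = 3 := by
    intro D hD S T hST h1 h2
    obtain ⟨j, hj1, hj⟩ := hlt S T hST
    have h3 := hmul S T
    have h4 : Nat.card D ≤ Nat.card ↥((S : Subgroup G) ⊓ T) :=
      Subgroup.card_le_of_le (le_inf h1 h2)
    have h5 : 3 ^ 1 ≤ 3 ^ j := Nat.pow_le_pow_right (by norm_num) hj1
    have h6 := hD.1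
    have h7 : 0 < Nat.card D := Nat.card_pos
    rw [← hj] at h5
    refine ⟨Subgroup.eq_of_le_of_card_ge (le_inf h1 h2) (by nlinarith), by nlinarith⟩
  have hpg : ∀ D, good D → IsPGroup 3 D := by
    intro D hD
    obtain ⟨S, hS⟩ : (F₀ D).Nonempty := card_pos.1 (by have := hD.2; omega)
    exact S.isPGroup'.to_le ((hF₀ D S).1 hS)
  have hnorm : ∀ D, good D → ∀ S : Sylow 3 G, D ≤ S →
      (S : Subgroup G) ≤ Subgroup.normalizer (D : Set G) := by
    intro D hD S hS
    rw [← Subgroup.normal_subgroupOf_iff_le_normalizer hS]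
    refine Subgroup.normal_of_index_eq_minFac_card ?_
    have h1 := Subgroup.card_mul_index (D.subgroupOf S)
    rw [Nat.card_congr (Subgroup.subgroupOfEquivOfLe hS).toEquiv, hcard, hk, ← hD.1] at h1
    rw [Nat.eq_of_mul_eq_mul_left Nat.card_pos h1, hcard, hk, Nat.Prime.pow_minFac Nat.prime_three]
    rintro rfl
    have := hD.1
    omega
  have hsm : ∀ (g : G) (D : Subgroup G) (S : Sylow 3 G),
      MulAut.conj g • D ≤ ((g • S : Sylow 3 G) : Subgroup G) ↔ D ≤ S := by
    intro g D S
    rw [Sylow.coe_subgroup_smul]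
    exact Subgroup.pointwise_smul_le_pointwise_smul_iff
  have hgood : ∀ (g : G) (D : Subgroup G), good D → good (MulAut.conj g • D) := by
    intro g D hD
    refine ⟨?_, hD.2.trans (card_le_card_of_injOn (fun S => g • S) (fun S hS => ?_)
      (fun a _ b _ h => smul_left_cancel g h))⟩
    · rw [← hD.1, Nat.card_congr (Subgroup.equivSMul (MulAut.conj g) D).toEquiv]
    · exact (hF₀ _ _).2 ((hsm g D S).2 ((hF₀ _ _).1 hS))
  refine comb (ι := {D // good D}) (fun D => F₀ D.1) hΩ ?_ ?_ ?_
    (univ.filter (fun D : {D // good D} => P ∈ F₀ D.1)).card ?_ ?_ ?_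
  · intro D D' hDD S T h1 h2 h3 h4
    by_contra hST
    simp only [hF₀] at h1 h2 h3 h4
    exact hDD (Subtype.ext ((heq _ D.2 S T hST h1 h3).1.trans (heq _ D'.2 S T hST h2 h4).1.symm))
  · intro D
    have h1 := Transfer.Semireg.card_modEq_of_invariant (Ω := Sylow 3 G) (hpg _ D.2) Set.univ
      (fun _ _ _ _ => Set.mem_univ _)
    have h2 : Nat.card {x : Sylow 3 G // x ∈ Set.univ ∧ ∀ g ∈ D.1, g • x = x} = (F₀ D.1).card := by
      rw [← Nat.card_eq_finsetCard]
      refine Nat.card_congr (Equiv.subtypeEquivRight fun S => ?_)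
      rw [hF₀, smul_eq_iff_le (hpg _ D.2)]
      simp
    rw [h2, Nat.card_univ, h22, Nat.ModEq] at h1
    have := D.2.2
    omega
  · intro D h
    rw [← hΩ, card_eq_iff_eq_univ] at h
    rcases hnall D.1 (fun S => (hF₀ _ S).1 (h ▸ mem_univ S)) with e | e
    · have h1 := D.2.1
      rw [e, Subgroup.card_bot, ← hk] at h1
      exact hne (by omega)
    · exact hnt e
  · have key : ∀ S T : Sylow 3 G, (univ.filter (fun D : {D // good D} => S ∈ F₀ D.1)).card ≤
        (univ.filter (fun D : {D // good D} => T ∈ F₀ D.1)).card := by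
      intro S T
      obtain ⟨g, rfl⟩ := MulAction.exists_smul_eq G S T
      refine card_le_card_of_injOn (fun D => ⟨MulAut.conj g • D.1, hgood g _ D.2⟩)
        (fun D hD => ?_) (fun a _ b _ h => Subtype.ext (smul_left_cancel _ (congrArg Subtype.val h)))
      simp only [coe_filter, mem_univ, true_and, Set.mem_ofPred_eq, hF₀] at hD ⊢
      exact (hsm g _ S).2 hD
    exact fun S => le_antisymm (key S P) (key P S)
  · intro S
    let K := univ.filter fun T : Sylow 3 G => (T : Subgroup G).relIndex S = 3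
    let Θ := univ.filter fun T : Sylow 3 G => T ≠ S ∧ (T : Subgroup G).relIndex S ≠ 3
    have hS1 : (S : Subgroup G).relIndex S = 1 := Subgroup.relIndex_self _
    refine ⟨K, fun T => ?_, ?_⟩
    · simp only [K, mem_filter, mem_univ, true_and, hF₀]
      constructor
      · intro h
        have hTS : T ≠ S := by
          rintro rfl
          omega
        refine ⟨hTS, ⟨(S : Subgroup G) ⊓ T, by rw [← hmul S T, h], ?_⟩, inf_le_left, inf_le_right⟩
        exact one_lt_card.2 ⟨S, (hF₀ _ _).2 inf_le_left, T, (hF₀ _ _).2 inf_le_right, hTS.symm⟩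
      · rintro ⟨hTS, D, h1, h2⟩
        exact (heq _ D.2 S T hTS.symm h1 h2).2
    · have h9 : 9 ∣ Θ.card := by
        refine dvd_card_of_orbits (H := (S : Subgroup G)) Θ (fun h T hT => ?_) fun T hT => ?_
        · simp only [Θ, mem_filter, mem_univ, true_and] at hT ⊢
          constructor
          · intro e
            apply hT.1
            have h1 : h⁻¹ • S = S := (smul_eq_iff_le S.isPGroup' S).2 le_rfl _ (h⁻¹).2
            exact (eq_inv_smul_iff.2 e).trans h1
          · rw [← card_orbit_sylow, MulAction.orbit_smul, card_orbit_sylow]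
            exact hT.2
        · simp only [Θ, mem_filter, mem_univ, true_and] at hT
          obtain ⟨j, hj1, hj⟩ := hlt S T hT.1.symm
          rw [card_orbit_sylow, hj]
          have : j ≠ 1 := by
            rintro rfl
            exact hT.2 hj
          exact pow_dvd_pow 3 (show 2 ≤ j by omega)
      have hu : (univ : Finset (Sylow 3 G)) = insert S (K ∪ Θ) := by
        ext T
        simp only [K, Θ, mem_insert, mem_union, mem_filter, mem_univ, true_and, true_iff]
        tauto
      have h1 := congrArg card hu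
      rw [card_univ, hΩ, card_insert_of_notMem, card_union_of_disjoint] at h1
      · omega
      · rw [disjoint_left]
        intro T h2 h3
        exact (mem_filter.1 h3).2.2 (mem_filter.1 h2).2
      · simp [K, Θ]
  · rintro l m m' hlm hlm' hmm' ⟨S, hS1, hS2⟩ ⟨T, hT1, hT2⟩ U hU1 hU2
    simp only [hF₀] at hS1 hS2 hT1 hT2 hU1 hU2 ⊢
    rw [← smul_eq_iff_le (hpg _ l.2)]
    intro g hg
    have key : ∀ D : {D // good D}, ∀ V : Sylow 3 G, l.1 ≤ V → D.1 ≤ V → D.1 ≤ U →
        D.1 ≤ ((g • U : Sylow 3 G) : Subgroup G) := by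
      intro D V h1 h2 h3
      have h4 := hnorm _ D.2 V h2 (h1 hg)
      refine le_trans (fun x hx => ?_) ((hsm g _ U).2 h3)
      rw [Subgroup.mem_pointwise_smul_iff_inv_smul_mem]
      simpa using (Subgroup.mem_normalizer_iff.1 (inv_mem h4) x).1 hx
    by_contra hne'
    exact hmm' (Subtype.ext ((heq _ m.2 _ _ hne' (key m S hS1 hS2 hU1) hU1).1.trans
      (heq _ m'.2 _ _ hne' (key m' T hT1 hT2 hU2) hU2).1.symm))

end Cfsg.Agent.Small.Syl22
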