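import Mathlib
import Cfsg.Agent.Small.Syl22a
import Cfsg.Agent.Small.PrimeSylow
import Cfsg.Agent.Small.SymNorm
import Cfsg.Agent.Small.Count
import Cfsg.Agent.PLocal.AmbSyl

/-!
No simple group has exactly 22 Sylow 3-subgroups.
-/

set_option autoImplicit false

namespace Cfsg.Agent.Small.Syl22

open Finset
open scoped Pointwise

/-- Centralizers of elements of prime order acting as even permutations. -/
theorem two_mul_card_dvd {G α : Type*} [Group G] [Fintype α] [DecidableEq α]
    (φ : G →* Equiv.Perm α) (hφ : Function.Injective φ) (hs : ∀ g, Equiv.Perm.sign (φ g) = 1)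
    {z : G} {p k : ℕ} (hp : p.Prime) (hz : orderOf z = p) (hk : 2 ≤ k)
    (hsupp : (φ z).support.card = p * k) :
    2 * Nat.card (Subgroup.centralizer ({z} : Set G)) ∣
      (Fintype.card α - p * k).factorial * p ^ k * k.factorial := by
  have ho : orderOf (φ z) = p := by rw [orderOf_injective φ hφ, hz]
  obtain ⟨n, hn⟩ := Equiv.Perm.cycleType_prime_order (σ := φ z) (ho ▸ hp)
  rw [ho] at hn
  have hsum := Equiv.Perm.sum_cycleType (φ z)
  rw [hn, Multiset.sum_replicate, smul_eq_mul, hsupp, mul_comm] at hsum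
  have hnk : n + 1 = k := Nat.eq_of_mul_eq_mul_left hp.pos hsum
  rw [hnk] at hn
  have hc := Equiv.Perm.nat_card_centralizer (φ z)
  rw [hn, Multiset.sum_replicate, Multiset.prod_replicate, Multiset.toFinset_replicate,
    if_neg (by omega), prod_singleton, Multiset.count_replicate_self, smul_eq_mul,
    mul_comm k p] at hc
  have hnle : ¬ Subgroup.centralizer {φ z} ≤ alternatingGroup α := by
    rw [Equiv.Perm.centralizer_le_alternating_iff]
    rintro ⟨-, -, h⟩
    have := h p
    rw [hn, Multiset.count_replicate_self] at this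
    omega
  have hnt : Nontrivial α := by
    have h1 := card_le_univ (φ z).support
    have h2 : 2 * 2 ≤ p * k := Nat.mul_le_mul hp.two_le hk
    exact Fintype.one_lt_card_iff_nontrivial.1 (by omega)
  have hidx : (alternatingGroup α).relIndex (Subgroup.centralizer {φ z}) = 2 := by
    have h1 := Subgroup.relIndex_dvd_index_of_normal (alternatingGroup α)
      (Subgroup.centralizer {φ z})
    rw [alternatingGroup.index_eq_two] at h1
    rcases (Nat.dvd_prime Nat.prime_two).1 h1 with h | h
    · exact (hnle (Subgroup.relIndex_eq_one.1 h)).elim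
    · exact h
  rw [← hc, ← Subgroup.card_mul_index ((alternatingGroup α).subgroupOf
    (Subgroup.centralizer {φ z})), mul_comm 2]
  refine Nat.mul_dvd_mul ?_ (dvd_of_eq hidx.symm)
  let ψ : Subgroup.centralizer ({z} : Set G) →*
      (alternatingGroup α).subgroupOf (Subgroup.centralizer {φ z}) :=
    { toFun := fun g => ⟨⟨φ g, by
        rw [Subgroup.mem_centralizer_singleton_iff, ← map_mul, ← map_mul,
          Subgroup.mem_centralizer_singleton_iff.1 g.2]⟩, hs g⟩
      map_one' := by simp
      map_mul' := fun a b => Subtype.ext (Subtype.ext (map_mul φ (a : G) b)) }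
  exact Subgroup.card_dvd_of_injective ψ fun a b h =>
    Subtype.ext (hφ (congrArg (fun x => (x.1 : Equiv.Perm α)) h))

theorem not_simple {G : Type*} [Group G] [Finite G] [IsSimpleGroup G]
    (h22 : Nat.card (Sylow 3 G) = 22) : False := by
  classical
  have := Fintype.ofFinite (Sylow 3 G)
  have hΩ : Fintype.card (Sylow 3 G) = 22 := by rw [← Nat.card_eq_fintype_card, h22]
  obtain ⟨P⟩ : Nonempty (Sylow 3 G) := inferInstance
  have h3 := card_sylow_three h22
  have hG : ¬ IsMulCommutative G := by
    intro h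
    have : (P : Subgroup G).Normal := inferInstance
    have := Sylow.unique_of_normal P this
    rw [Nat.card_unique] at h22
    omega
  have hm : Nat.card G = 3 * (P : Subgroup G).index := by
    rw [← (P : Subgroup G).card_mul_index, h3 P]
  have hdata := fun S : Sylow 3 G => prime_sylow_data hG hm P.not_dvd_index S
  obtain ⟨n, e, c, hnec, -, -, he1, he2, hn, -, -, hC, -, -⟩ := hdata P
  have he : e = 2 := by have := Nat.le_of_dvd (by norm_num) he2; omega
  rw [h22] at hn
  subst he hn
  have hc3 : ¬ 3 ∣ c := fun h => P.not_dvd_index (hnec ▸ Dvd.dvd.mul_left h _)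
  have hGc : Nat.card G = 132 * c := by omega
  have hN : ∀ S : Sylow 3 G, Nat.card (Subgroup.normalizer ((S : Subgroup G) : Set G)) = 6 * c := by
    intro S
    have := card_sylow_mul_card_normalizer S
    rw [h22] at this
    omega
  have hfixN : ∀ (g : G) (S : Sylow 3 G), g • S = S ↔
      g ∈ Subgroup.normalizer ((S : Subgroup G) : Set G) := fun g S => Sylow.smul_eq_iff_mem_normalizer
  have hodd : ∀ (g : G) (S : Sylow 3 G), Odd (orderOf g) → g • S = S →
      (S : Subgroup G) ≤ Subgroup.centralizer {g} := by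
    intro g S ho h
    obtain ⟨n, e, c', -, -, -, he1, he2, -, -, -, -, -, hr⟩ := hdata S
    have he : e = 2 := by have := Nat.le_of_dvd (by norm_num) he2; omega
    subst he
    have h1 : g * g ∈ Subgroup.centralizer ((S : Subgroup G) : Set G) :=
      Subgroup.mul_self_mem_of_index_two hr ⟨g, (hfixN g S).1 h⟩
    obtain ⟨j, hj⟩ := ho
    have h2 : g = (g * g) ^ (j + 1) := by
      rw [← pow_two, ← pow_mul, show 2 * (j + 1) = (2 * j + 1) + 1 by ring, pow_succ, ← hj,
        pow_orderOf_eq_one, one_mul]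
    have h4 : g ∈ Subgroup.centralizer ((S : Subgroup G) : Set G) := h2 ▸ pow_mem h1 _
    intro s hs
    exact Subgroup.mem_centralizer_singleton_iff.2 (Subgroup.mem_centralizer_iff.1 h4 s hs)
  have hcfix : ∀ (g : G) (S : Sylow 3 G), (S : Subgroup G) ≤ Subgroup.centralizer {g} →
      g • S = S := by
    intro g S h
    refine (hfixN g S).2 (Subgroup.centralizer_le_normalizer _ ?_)
    exact Subgroup.mem_centralizer_iff.2 fun s hs => Subgroup.mem_centralizer_singleton_iff.1 (h hs)
  let φ := MulAction.toPermHom G (Sylow 3 G)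
  obtain ⟨Q₀, hQ₀⟩ : ∃ Q : Sylow 3 G, Q ≠ P := by
    have : Nontrivial (Sylow 3 G) := Fintype.one_lt_card_iff_nontrivial.1 (by omega)
    exact exists_ne P
  have hφ : Function.Injective φ := by
    obtain ⟨g, hg⟩ := MulAction.exists_smul_eq G P Q₀
    exact toPermHom_injective_of_ne (g := g) (a := P) (hg ▸ hQ₀)
  have hs : ∀ g, Equiv.Perm.sign (φ g) = 1 := sign_toPerm_eq_one hG φ
  let Fix : G → Set (Sylow 3 G) := fun g => {S | g • S = S}
  have hcomm : ∀ g h : G, g * h = h * g → ∀ S ∈ Fix h, g • S ∈ Fix h := by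
    intro g h e S hS
    change h • g • S = g • S
    rw [smul_smul, ← e, ← smul_smul, show h • S = S from hS]
  have hle22 : ∀ g, Nat.card (Fix g) ≤ 22 := fun g =>
    h22 ▸ Nat.card_le_card_of_injective _ Subtype.val_injective
  have hne22 : ∀ g, g ≠ 1 → Nat.card (Fix g) ≠ 22 := by
    intro g hg h
    have h1 : Fix g = Set.univ := Set.eq_of_subset_of_ncard_le (Set.subset_univ _)
      (by rw [Set.ncard_univ, h22]; exact h.ge)
    refine hg (hφ ?_)
    rw [map_one]
    refine Equiv.ext fun S => ?_
    have : S ∈ Fix g := h1 ▸ Set.mem_univ S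
    exact this
  have hmodr : ∀ (r : ℕ) [Fact r.Prime] (y : G), orderOf y = r → ∀ X : Set (Sylow 3 G),
      (∀ S ∈ X, y • S ∈ X) → Nat.card X ≡ Nat.card ↥(X ∩ Fix y) [MOD r] := by
    intro r _ y hy X hX
    have hp : IsPGroup r (Subgroup.zpowers y) :=
      IsPGroup.of_card (n := 1) (by rw [Nat.card_zpowers, hy, pow_one])
    have h1 := Transfer.Semireg.card_modEq_of_invariant hp X (by
      intro g hg S hS
      obtain ⟨k, rfl⟩ := mem_powers_iff_mem_zpowers.2 hg
      induction k with
      | zero => simpa using hS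
      | succ k ih =>
        simp only [pow_succ', mul_smul]
        exact hX _ (ih (pow_mem (Subgroup.mem_zpowers y) k)))
    refine h1.trans (congrArg (· % r) (Nat.card_congr (Equiv.subtypeEquivRight fun S => ?_)))
    refine and_congr_right fun _ => ⟨fun h => h y (Subgroup.mem_zpowers y), fun h g hg => ?_⟩
    exact (Subgroup.zpowers_le (H := MulAction.stabilizer G S)).2 h hg
  have hmod3 : ∀ g : G, Odd (orderOf g) → (Fix g).Nonempty → Nat.card (Fix g) % 3 = 1 := by
    rintro g hg ⟨S, hS⟩
    have h1 := Transfer.Semireg.card_modEq_of_invariant S.isPGroup' (Fix g) fun s hs T hT =>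
      hcomm s g (Subgroup.mem_centralizer_singleton_iff.1 (hodd g S hg hS hs)) T hT
    have h2 : Nat.card {x : Sylow 3 G // x ∈ Fix g ∧ ∀ s ∈ (S : Subgroup G), s • x = x} = 1 := by
      rw [Nat.card_eq_one_iff_exists]
      refine ⟨⟨S, hS, (smul_eq_iff_le S.isPGroup' S).2 le_rfl⟩, fun T => Subtype.ext ?_⟩
      exact Sylow.ext (S.is_maximal' T.1.isPGroup' ((smul_eq_iff_le S.isPGroup' _).1 T.2.2))
    rwa [h2] at h1
  -- the order of the centralizer of `P`
  obtain ⟨x, hx, hxP⟩ := exists_zpowers_eq_sylow P (h3 P)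
  have hCx : Nat.card (Subgroup.centralizer ({x} : Set G)) = 3 * c := by
    rw [← centralizer_zpowers, hxP, hC]
  have hc280 : c ∣ 280 := by
    have hsupp : (φ x).support = univ.erase P := by
      ext S
      rw [Equiv.Perm.mem_support, mem_erase]
      simp only [mem_univ, and_true]
      refine not_congr ⟨fun h => ?_, fun h => ?_⟩
      · have h1 : ∀ g ∈ (P : Subgroup G), g • S = S := fun g hg =>
          (Subgroup.zpowers_le (H := MulAction.stabilizer G S)).2 h (hxP ▸ hg)
        exact Sylow.ext (P.is_maximal' S.isPGroup' ((smul_eq_iff_le P.isPGroup' _).1 h1))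
      · rw [h]
        exact (smul_eq_iff_le P.isPGroup' P).2 le_rfl x (hxP ▸ Subgroup.mem_zpowers x)
    have h1 := two_mul_card_dvd φ hφ hs Nat.prime_three hx (k := 7) (by norm_num)
      (by rw [hsupp, card_erase_of_mem (mem_univ _), card_univ, hΩ])
    rw [hCx, hΩ] at h1
    have h2 : c ∣ 3 ^ 8 * 280 := by
      have : 2 * (3 * c) ∣ 2 * (3 * (3 ^ 8 * 280)) := by simpa [Nat.factorial] using h1
      exact Nat.dvd_of_mul_dvd_mul_left (by norm_num)
        (Nat.dvd_of_mul_dvd_mul_left (by norm_num) this)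
    exact (Nat.Coprime.pow_right 8 ((Nat.Prime.coprime_iff_not_dvd Nat.prime_three).2
      hc3).symm).dvd_of_dvd_mul_left h2
  have hc5 : ¬ 5 ∣ c := by
    intro h5
    have : Fact (Nat.Prime 5) := ⟨by norm_num⟩
    have : Fact (Nat.Prime 7) := ⟨by norm_num⟩
    obtain ⟨⟨k, hkC⟩, hk⟩ := exists_prime_orderOf_dvd_card' (G := Subgroup.centralizer
      ((P : Subgroup G) : Set G)) 5 (by rw [hC]; exact Dvd.dvd.mul_left h5 _)
    rw [Subgroup.orderOf_mk] at hk
    have hPk : (P : Subgroup G) ≤ Subgroup.centralizer {k} := fun s hs =>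
      Subgroup.mem_centralizer_singleton_iff.2 (Subgroup.mem_centralizer_iff.1 hkC s hs)
    have hko : Odd (orderOf k) := by rw [hk]; decide
    have h7 : Nat.card (Fix k) = 7 := by
      have a1 := hmodr 5 k hk Set.univ fun _ _ => Set.mem_univ _
      rw [Set.univ_inter, Nat.card_univ, h22, Nat.ModEq] at a1
      have a2 := hmod3 k hko ⟨P, hcfix k P hPk⟩
      have a3 := hle22 k
      have a4 := hne22 k (by rintro rfl; simp at hk)
      omega
    have horb : MulAction.orbit (Subgroup.centralizer ({k} : Set G)) P = Fix k := by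
      ext S
      constructor
      · rintro ⟨g, rfl⟩
        exact hcomm g k (Subgroup.mem_centralizer_singleton_iff.1 g.2) P (hcfix k P hPk)
      · intro hS
        obtain ⟨g, hg, e⟩ := (PLocal.Amb.isSyl_of_le S (hodd k S hko hS)).exists_cj_eq
          (PLocal.Amb.isSyl_of_le P hPk)
        exact ⟨⟨g, hg⟩, Sylow.ext e⟩
    have h7d : 7 ∣ Nat.card (Subgroup.centralizer ({k} : Set G)) := by
      have := MulAction.index_stabilizer (Subgroup.centralizer ({k} : Set G)) P
      rw [horb, ← Nat.card_coe_set_eq, h7] at this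
      exact this ▸ Subgroup.index_dvd_card _
    obtain ⟨⟨y, hyC⟩, hy⟩ := exists_prime_orderOf_dvd_card' 7 h7d
    rw [Subgroup.orderOf_mk] at hy
    have hyk := Subgroup.mem_centralizer_singleton_iff.1 hyC
    have h1 : Nat.card (Fix y) = 1 := by
      have a1 := hmodr 7 y hy Set.univ fun _ _ => Set.mem_univ _
      rw [Set.univ_inter, Nat.card_univ, h22, Nat.ModEq] at a1
      have a2 := hmod3 y (by rw [hy]; decide) (by
        rw [Set.nonempty_iff_ne_empty]
        intro e
        rw [e] at a1
        simp at a1)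
      have a3 := hle22 y
      have a4 := hne22 y (by rintro rfl; simp at hy)
      omega
    obtain ⟨T, hT⟩ := Set.ncard_eq_one.1 h1
    have hTy : T ∈ Fix y := hT ▸ Set.mem_singleton T
    have hTk : T ∈ Fix k := by
      have := hcomm k y hyk.symm T hTy
      rwa [hT] at this
    have h2 := hmodr 7 y hy (Fix k) (hcomm y k hyk)
    rw [h7, hT, Set.inter_eq_right.2 (Set.singleton_subset_iff.2 hTk)] at h2
    simp [Nat.ModEq] at h2
  have hc56 : c ∣ 56 := (Nat.Coprime.symm ((Nat.Prime.coprime_iff_not_dvd (by norm_num)).2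
    hc5)).dvd_of_dvd_mul_left (show c ∣ 5 * 56 from hc280)
  have : Fact (Nat.Prime 11) := ⟨by norm_num⟩
  obtain ⟨R⟩ : Nonempty (Sylow 11 G) := inferInstance
  have hc11 : ¬ 11 ∣ c := fun h => by have := h.trans hc56; omega
  have h11 : ¬ 11 ∣ 12 * c := fun h =>
    hc11 ((Nat.Coprime.dvd_of_dvd_mul_left (by norm_num)) h)
  obtain ⟨n, e, d, hned, hn1, -, he1, he2, -, hR, hNR, hCR, hidx, -⟩ :=
    prime_sylow_data (p := 11) hG (m := 12 * c) (by omega) h11 R
  obtain ⟨z, hz, hzR⟩ := exists_zpowers_eq_sylow R hR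
  have hd : d = 1 := by
    have hsupp : (φ z).support = univ := by
      refine eq_univ_of_forall fun S => Equiv.Perm.mem_support.2 fun h => ?_
      have h1 := Subgroup.orderOf_dvd_natCard _ ((hfixN z S).1 h)
      rw [hz, hN] at h1
      exact hc11 ((Nat.Coprime.dvd_of_dvd_mul_left (by norm_num)) h1)
    have h1 := two_mul_card_dvd φ hφ hs (by norm_num) hz (k := 2) le_rfl
      (by rw [hsupp, card_univ, hΩ])
    rw [← centralizer_zpowers, hzR, hCR, hΩ] at h1
    have h2 : d ∣ 11 := by
      have : 2 * (11 * d) ∣ 2 * (11 * 11) := by simpa [Nat.factorial] using h1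
      exact Nat.dvd_of_mul_dvd_mul_left (by norm_num)
        (Nat.dvd_of_mul_dvd_mul_left (by norm_num) this)
    rcases (Nat.dvd_prime (by norm_num)).1 h2 with h | h
    · exact h
    · exact (h11 (hned ▸ h ▸ Dvd.intro_left _ rfl)).elim
  have he : e = 2 := by
    have h1 : ¬ 5 ∣ e := fun h => hc5 ((Nat.Coprime.dvd_of_dvd_mul_left (by norm_num))
      (hned ▸ (h.mul_left n).mul_right d : 5 ∣ 12 * c))
    have h2 := Nat.le_of_dvd (by norm_num) he2
    interval_cases e <;> omega
  subst hd he
  have hc2 : c = 2 := by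
    have h2 := Nat.le_of_dvd (by norm_num) hc56
    have h4 : (6 * c) % 11 = 1 := by omega
    interval_cases c <;> omega
  have h1 := two_mul_card_normalizer_sylow_dvd hG (by norm_num) _
    (sylow_normalizer_ne_top hG R (by omega)) (by omega) R hR
  rw [hNR, hidx, show n = 12 by omega] at h1
  norm_num at h1

end Cfsg.Agent.Small.Syl22
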