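import Cfsg.Agent.Small.Sieve

/-! A faster (kernel-friendly) version of `primeKill`. -/

set_option autoImplicit false

namespace Cfsg.Agent.Small.Sieve

/-- force the evaluation of a natural number -/
noncomputable def frc (n : ℕ) (f : ℕ → Bool) : Bool := Nat.rec (f 0) (fun m _ => f (Nat.succ m)) n

theorem frc_eq (n : ℕ) (f : ℕ → Bool) : frc n f = f n := by cases n <;> rfl

theorem go_last {fin : List ℤ → ℕ → Bool} {N : ℕ} (d : ℤ) : ∀ (k : ℕ) (acc : List ℤ) (s : ℕ),
    fin (List.replicate k d ++ acc) (s + k * d.natAbs ^ 2) = true → go fin N [d] k acc s = true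
  | 0, acc, s, h => by
    show fin acc s = true
    simpa using h
  | k + 1, acc, s, h => by
    show ((Nat.ble N (s + d.natAbs ^ 2) ||
          go fin N [d] k (d :: acc) (s + d.natAbs ^ 2)) && (Nat.ble 1 (k + 1) || fin acc s)) = true
    rw [go_last d k (d :: acc) (s + d.natAbs ^ 2) (by
      rw [← h, List.replicate_succ', List.append_assoc, List.singleton_append]
      congr 1
      ring)]
    simp

noncomputable def go2 (fin : List ℤ → ℕ → Bool) (gd : ℕ → Bool) (N : ℕ) (l : List ℤ) :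
    ℕ → List ℤ → ℕ → ℕ → ℕ → Bool :=
  List.rec (motive := fun _ => ℕ → List ℤ → ℕ → ℕ → ℕ → Bool)
    (fun k acc s P Q => Nat.ble 1 k || (!gd (Nat.add (Nat.sub P Q) (Nat.sub Q P)) || fin acc s))
    (fun d ds r => List.rec (motive := fun _ => ℕ → List ℤ → ℕ → ℕ → ℕ → Bool)
      (fun k acc s P Q => frc (Nat.add P (Nat.mul k d.toNat)) fun P' =>
        frc (Nat.add Q (Nat.mul k (-d).toNat)) fun Q' =>
        !gd (Nat.add (Nat.sub P' Q') (Nat.sub Q' P')) ||
          fin (List.replicate k d ++ acc) (s + k * d.natAbs ^ 2))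
      (fun _ _ _ k => Nat.rec (motive := fun _ => List ℤ → ℕ → ℕ → ℕ → Bool)
        (fun acc s P Q => !gd (Nat.add (Nat.sub P Q) (Nat.sub Q P)) || fin acc s)
        (fun k ih acc s P Q => (frc (Nat.add s (d.natAbs ^ 2)) fun s' => Nat.ble N s' ||
          frc (Nat.add P d.toNat) fun P' => frc (Nat.add Q (-d).toNat) fun Q' =>
            ih (d :: acc) s' P' Q') && r (Nat.succ k) acc s P Q) k) ds) l

theorem go2_go {fin : List ℤ → ℕ → Bool} {gd : ℕ → Bool} {N : ℕ}
    (h : ∀ acc s, gd (1 + acc.sum).natAbs = false → fin acc s = true) :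
    ∀ (l : List ℤ) (k : ℕ) (acc : List ℤ) (s P Q : ℕ), (P : ℤ) - Q = 1 + acc.sum →
      go2 fin gd N l k acc s P Q = true → go fin N l k acc s = true := by
  have hf : ∀ (acc : List ℤ) (s P Q : ℕ), (P : ℤ) - Q = 1 + acc.sum →
      (!gd (Nat.add (Nat.sub P Q) (Nat.sub Q P)) || fin acc s) = true → fin acc s = true := by
    intro acc s P Q h1 h2
    have h3 : Nat.add (Nat.sub P Q) (Nat.sub Q P) = (1 + acc.sum).natAbs := by
      rw [← h1]
      show P - Q + (Q - P) = _
      omega
    rw [h3, Bool.or_eq_true, Bool.not_eq_true'] at h2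
    exact h2.elim (h acc s) id
  intro l
  induction l with
  | nil =>
    intro k acc s P Q h1 h2
    have h3 : (Nat.ble 1 k || (!gd (Nat.add (Nat.sub P Q) (Nat.sub Q P)) || fin acc s)) = true := h2
    show (Nat.ble 1 k || fin acc s) = true
    rw [Bool.or_eq_true] at h3 ⊢
    exact h3.imp id (hf acc s P Q h1)
  | cons d ds ihl =>
    cases ds with
    | nil =>
      intro k acc s P Q h1 h2
      have h3 : (frc (Nat.add P (Nat.mul k d.toNat)) fun P' =>
        frc (Nat.add Q (Nat.mul k (-d).toNat)) fun Q' =>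
        !gd (Nat.add (Nat.sub P' Q') (Nat.sub Q' P')) ||
          fin (List.replicate k d ++ acc) (s + k * d.natAbs ^ 2)) = true := h2
      rw [frc_eq, frc_eq] at h3
      refine go_last d k acc s (hf _ _ _ _ ?_ h3)
      have h4 := Int.toNat_sub_toNat_neg d
      simp only [Nat.add_eq, Nat.mul_eq, List.sum_append, List.sum_replicate, nsmul_eq_mul]
      push_cast
      linear_combination h1 + k * h4
    | cons d' ds =>
      intro k
      induction k with
      | zero => exact fun acc s P Q h1 h2 => hf acc s P Q h1 h2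
      | succ k ih =>
        intro acc s P Q h1 h2
        have h3 : ((frc (Nat.add s (d.natAbs ^ 2)) fun s' => Nat.ble N s' ||
          frc (Nat.add P d.toNat) fun P' => frc (Nat.add Q (-d).toNat) fun Q' =>
            go2 fin gd N (d :: d' :: ds) k (d :: acc) s' P' Q') &&
            go2 fin gd N (d' :: ds) (k + 1) acc s P Q) = true := h2
        show ((Nat.ble N (s + d.natAbs ^ 2) ||
            go fin N (d :: d' :: ds) k (d :: acc) (s + d.natAbs ^ 2)) &&
            go fin N (d' :: ds) (k + 1) acc s) = true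
        simp only [frc_eq, Bool.and_eq_true, Bool.or_eq_true, Nat.add_eq] at h3 ⊢
        refine ⟨h3.1.imp id (ih _ _ _ _ ?_), ihl _ _ _ _ _ h1 h3.2⟩
        rw [List.sum_cons]
        omega

noncomputable def cands2 (p idx c : ℕ) (odd : Bool) (B : ℕ) : List ℤ :=
  Nat.rec [] (fun d r => cond (Nat.beq (Nat.mod idx (Nat.succ d)) 0)
    (bif good p idx c (d + 1) then
      bif (d + 1) % p == 1 then ((d + 1 : ℕ) : ℤ) :: r
      else bif (d + 2) % p == 0 && !(odd && d + 2 == p) then -((d + 1 : ℕ) : ℤ) :: r else r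
    else r) r) B

theorem cands2_eq (p idx c : ℕ) (odd : Bool) : ∀ B, cands2 p idx c odd B = cands p idx c odd B
  | 0 => rfl
  | d + 1 => by
    have h : cands2 p idx c odd (d + 1) = cond (Nat.beq (Nat.mod idx (Nat.succ d)) 0)
      (bif good p idx c (d + 1) then
        bif (d + 1) % p == 1 then ((d + 1 : ℕ) : ℤ) :: cands2 p idx c odd d
        else bif (d + 2) % p == 0 && !(odd && d + 2 == p) then
          -((d + 1 : ℕ) : ℤ) :: cands2 p idx c odd d else cands2 p idx c odd d
      else cands2 p idx c odd d) (cands2 p idx c odd d) := rfl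
    rw [h, cands, cands2_eq p idx c odd d]
    cases h1 : Nat.beq (Nat.mod idx (Nat.succ d)) 0
    · have h2 : idx % (d + 1) ≠ 0 := Nat.ne_of_beq_eq_false h1
      have h3 : good p idx c (d + 1) = false := by simp [good, h2]
      rw [h3]
      rfl
    · rfl

noncomputable def divs2 (m B : ℕ) : List ℕ :=
  Nat.rec [] (fun d r => cond (Nat.beq (Nat.mod m (Nat.succ d)) 0)
    ((d + 1) :: m / (d + 1) :: r) r) B

theorem divs2_eq (m : ℕ) : ∀ B, divs2 m B = divs m B
  | 0 => rfl
  | d + 1 => by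
    have h : divs2 m (d + 1) = cond (Nat.beq (Nat.mod m (Nat.succ d)) 0)
      ((d + 1) :: m / (d + 1) :: divs2 m d) (divs2 m d) := rfl
    rw [h, divs, divs2_eq m d]
    cases h1 : Nat.beq (Nat.mod m (Nat.succ d)) 0
    · have h2 : m % (d + 1) ≠ 0 := Nat.ne_of_beq_eq_false h1
      rw [beq_eq_false_iff_ne.2 h2]
    · have h2 : m % (d + 1) = 0 := Nat.eq_of_beq_eq_true h1
      simp [h2]

noncomputable def degKill2 (B n N p idx e c : ℕ) (A : ℕ → ℕ → ℕ → Bool) (bts : List (ℕ × ℕ)) :
    Bool :=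
  go2 (fin B n N p idx e c A bts) (good p idx c) N
    (cands2 p idx c (c == 1 && (p - 1) / e % 2 == 1) B) (e - 1) [] 1 1 0

theorem degKill2_le {B n N p idx e c : ℕ} {A : ℕ → ℕ → ℕ → Bool} {bts : List (ℕ × ℕ)}
    (h : degKill2 B n N p idx e c A bts = true) : degKill B n N p idx e c A bts = true := by
  rw [degKill2, cands2_eq] at h
  exact go2_go (gd := good p idx c) (fun acc s h => by simp [fin, h]) _ _ _ _ 1 0 (by simp) h

noncomputable def primeKill2 (B n p : ℕ) (A : ℕ → ℕ → ℕ → Bool) (bts : List (ℕ × ℕ))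
    (keep : ℕ → ℕ → ℕ → Bool) : Bool :=
  Nat.ble p (B * B) && Nat.ble 3 p && n % p == 0 && !(n / p % p == 0) && Nat.ble n (B * B) &&
    frc (n / p) fun m => (divs2 m B).all fun k => !(k % p == 1) || k == 1 || idxKill n k ||
      (divs (p - 1) p).all fun e => e == 1 || !(m % (k * e) == 0) ||
        keep k e (m / (k * e)) || frc (k * e) fun idx => frc (m / (k * e)) fun c =>
          frc e fun e => degKill2 B n n p idx e c A bts

theorem dvd_of_mem_divs {m d : ℕ} : ∀ B, d ∈ divs m B → d ∣ m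
  | 0, h => by simp [divs] at h
  | B + 1, h => by
    rw [divs] at h
    cases h1 : (m % (B + 1) == 0)
    · rw [h1] at h
      exact dvd_of_mem_divs B h
    · rw [h1] at h
      have h2 : B + 1 ∣ m := Nat.dvd_of_mod_eq_zero (by simpa using h1)
      simp only [cond_true, List.mem_cons] at h
      rcases h with rfl | rfl | h
      exacts [h2, Nat.div_dvd_of_dvd h2, dvd_of_mem_divs B h]

theorem noDiv_of_prime {p : ℕ} (hp : p.Prime) : ∀ B, noDiv p B = true
  | 0 => rfl
  | d + 1 => by
    rw [noDiv, noDiv_of_prime hp d]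
    simp only [Bool.and_true, Bool.or_eq_true, Nat.ble_eq, Bool.not_eq_true', beq_eq_false_iff_ne]
    by_contra! h
    rcases (Nat.dvd_prime hp).1 (Nat.dvd_of_mod_eq_zero h.2) with h1 | h1
    · omega
    · have h2 := h.1
      rw [← h1] at h2
      have : d + 2 < (d + 2) * (d + 2) := by nlinarith
      omega

theorem primeKill2_le {B n p : ℕ} [hp : Fact p.Prime] {A : ℕ → ℕ → ℕ → Bool} {bts : List (ℕ × ℕ)}
    {keep : ℕ → ℕ → ℕ → Bool} (h : primeKill2 B n p A bts keep = true) :
    primeKill B n p A bts keep = true := by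
  simp only [primeKill, primeKill2, primeB, noDiv_of_prime hp.out, frc_eq, divs2_eq,
    Bool.and_eq_true, List.all_eq_true, Bool.or_eq_true, Nat.ble_eq] at h ⊢
  obtain ⟨⟨⟨⟨⟨h1, h2⟩, h3⟩, h4⟩, h5⟩, h6⟩ := h
  refine ⟨⟨⟨⟨⟨⟨⟨by omega, h1⟩, trivial⟩, h2⟩, h3⟩, h4⟩, h5⟩,
    fun k hk => (h6 k hk).imp id fun h7 e he => (h7 e ?_).imp id degKill2_le⟩
  exact mem_divs (dvd_of_mem_divs B he) (by omega) (by nlinarith [Nat.sub_le p 1])

end Cfsg.Agent.Small.Sieve
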